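import Cfsg.Agent.H162.CC.Tools3
import Cfsg.Prelude.Def_CaseTheorems

/-!
# S3828: groups of characteristic two type (helper417)

* `map_mem_pCore` : surjections map `O_p` into `O_p`
* `cover` : in a group of characteristic 2 type every involution centralizer lies in a proper subgroup with `O_p = 1`, `p` odd
* `row_of_not_sq` : characteristic 2 type, two classes of involutions, `p² ∤ |G|`
-/

set_option autoImplicit false
set_option linter.unusedSectionVars false

namespace Cfsg.Agent.H417.CC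

open Subgroup Cfsg Cfsg.Agent.H162.CCR Cfsg.Agent.Lib.Cores

theorem map_mem_pCore {G H : Type*} [Group G] [Group H] {p : ℕ} (f : G →* H) (hf : Function.Surjective f) {x : G}
    (hx : x ∈ pCore p G) : f x ∈ pCore p H := by
  have h1 : (pCore p G).map f ≤ pCore p H :=
    le_pCore ((pCore_normal p G).map f hf) ((pCore_isPGroup p).map f)
  exact h1 ⟨x, hx, rfl⟩

/-- an element of `O_p` with trivial `m`-th power, `m` prime to `p` -/
theorem eq_one_of_pow {G : Type*} [Group G] {p : ℕ} [hp : Fact p.Prime] {x : G} (hx : x ∈ pCore p G) {m : ℕ}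
    (hm : ¬ p ∣ m) (h : x ^ m = 1) : x = 1 := by
  obtain ⟨k, hk⟩ := (pCore_isPGroup p) ⟨x, hx⟩
  have h1 : x ^ p ^ k = 1 := congrArg Subtype.val hk
  have h2 : Nat.Coprime (p ^ k) m := Nat.Coprime.pow_left k ((Nat.Prime.coprime_iff_not_dvd hp.out).2 hm)
  have h3 : orderOf x ∣ Nat.gcd (p ^ k) m := Nat.dvd_gcd (orderOf_dvd_of_pow_eq_one h1) (orderOf_dvd_of_pow_eq_one h)
  rw [h2] at h3
  exact orderOf_eq_one_iff.1 (Nat.dvd_one.1 h3)

section

variable {G : Type*} [Group G] [Finite G] {p : ℕ} [hp : Fact p.Prime]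

theorem pCore_normalizer (h : IsCharacteristicTwoType G) (hp2 : p ≠ 2) {T : Subgroup G} (hT : IsPGroup 2 T)
    (hT1 : T ≠ ⊥) : pCore p ↥(normalizer (T : Set G)) = ⊥ := by
  have h2 : Fact (Nat.Prime 2) := ⟨Nat.prime_two⟩
  have h1 := h.2 T hT hT1
  have hdis : Disjoint (pCore p ↥(normalizer (T : Set G))) (pCore 2 ↥(normalizer (T : Set G))) :=
    IsPGroup.disjoint_of_ne p 2 hp2 _ _ (pCore_isPGroup p) (pCore_isPGroup 2)
  rw [eq_bot_iff]
  intro x hx
  have h3 : x ∈ pCore 2 ↥(normalizer (T : Set G)) := by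
    apply h1
    rw [mem_centralizer_iff]
    intro y hy
    exact (Subgroup.commute_of_normal_of_disjoint _ _ (pCore_normal p _) (pCore_normal 2 _) hdis x y hx hy).symm
  have h4 : x ∈ pCore p ↥(normalizer (T : Set G)) ⊓ pCore 2 ↥(normalizer (T : Set G)) := ⟨hx, h3⟩
  rwa [hdis.eq_bot] at h4

theorem cover [hs : IsSimpleGroup G] (hab : ¬ IsMulCommutative G) (h : IsCharacteristicTwoType G) (hp2 : p ≠ 2) (t : G)
    (ht1 : t ≠ 1) (ht : t * t = 1) : ∃ H : Subgroup G, H ≠ ⊤ ∧ Subgroup.centralizer {t} ≤ H ∧ pCore p H = ⊥ := by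
  have h2 : Fact (Nat.Prime 2) := ⟨Nat.prime_two⟩
  have ho : orderOf t = 2 := orderOf_eq_prime (by rw [pow_two, ht]) ht1
  have hT : IsPGroup 2 (zpowers t) := IsPGroup.of_card (n := 1) (by rw [Nat.card_zpowers, ho, pow_one])
  have hT1 : zpowers t ≠ ⊥ := by rwa [Ne, zpowers_eq_bot]
  refine ⟨normalizer (zpowers t : Set G), ?_, ?_, pCore_normalizer h hp2 hT hT1⟩
  · exact normalizer_ne_top (p := 2) (pCore_eq_bot_of_simple hab 2) hT hT1
  · intro x hx
    rw [mem_centralizer_singleton_iff] at hx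
    rw [mem_normalizer_iff]
    have key : ∀ x : G, x * t = t * x → ∀ y ∈ zpowers t, x * y * x⁻¹ ∈ zpowers t := by
      rintro x hx _ ⟨n, rfl⟩
      have h3 : x * t ^ n * x⁻¹ = t ^ n := by
        have h4 : Commute x t := hx
        rw [(h4.zpow_right n).eq, mul_inv_cancel_right]
      show x * t ^ n * x⁻¹ ∈ _
      rw [h3]
      exact ⟨n, rfl⟩
    intro y
    constructor
    · exact key x hx y
    · intro hy
      have h3 := key x⁻¹ (by
        have h4 : Commute x t := hx
        exact h4.inv_left.eq) _ hy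
      have h5 : x⁻¹ * (x * y * x⁻¹) * x⁻¹⁻¹ = y := by group
      rwa [h5] at h3

/-- the row for `p² ∤ |G|` -/
theorem row_of_not_sq [hs : IsSimpleGroup G] (hab : ¬ IsMulCommutative G) (h : IsCharacteristicTwoType G) (hp2 : p ≠ 2)
    (hcard : ¬ p ^ 2 ∣ Nat.card G) {s t : G} (hs2 : s * s = 1) (hs1 : s ≠ 1) (ht2 : t * t = 1) (ht1 : t ≠ 1)
    (hst : ¬ IsConj s t) : CRow p G := by
  intro C hC c hc
  by_contra hc1
  exact hst (hC.isConj_of_cyclic hs (pCore_eq_bot_of_simple hab p) hcard hc hc1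
    (fun d hd hd1 => hC.odd_centralizer (cover hab h hp2) hd hd1) hs2 hs1 ht2 ht1)

end

end Cfsg.Agent.H417.CC
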