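import Cfsg.Agent.H417.CC.CharTwo
import Cfsg.Agent.H478.RadJ4
import Cfsg.Agent.H859.CentC
import Cfsg.Agent.SevenCases.SporJ4
import Cfsg.Agent.S0365
import Cfsg.Agent.J4Type.DuadUniq

/-!
# S3828: the fourth Janko group (helper417)
-/

set_option autoImplicit false

namespace Cfsg.Agent.H417.CC.JFour

open Subgroup Cfsg Cfsg.Agent.H162.CCR Cfsg.Agent.Lib.Cores Cfsg.Agent.J4Type Cfsg.Agent.H859

theorem card : Nat.card Spor.J4 = 86775571046077562880 := Cfsg.Agent.S1703.result.2

theorem simple : IsSimpleGroup Spor.J4 := Cfsg.Agent.S1703.result.1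

theorem fin : Finite Spor.J4 := Nat.finite_of_card_ne_zero (by rw [card]; norm_num)

theorem hab : ¬ IsMulCommutative Spor.J4 := by
  intro hm
  have := simple
  let _ : CommGroup Spor.J4 := { (inferInstance : Group Spor.J4) with mul_comm := hm.1.1 }
  have h1 : (Nat.card Spor.J4).Prime := IsSimpleGroup.prime_card
  rw [card] at h1
  norm_num at h1

/-- the primes dividing the order -/
theorem primes {p : ℕ} (hp : p.Prime) (h : p ∣ 86775571046077562880) : p = 2 ∨ p = 3 ∨ p = 5 ∨ p = 7 ∨ p = 11 ∨ p = 23 ∨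
    p = 29 ∨ p = 31 ∨ p = 37 ∨ p = 43 := by
  have h1 : 86775571046077562880 = 2 ^ 21 * 3 ^ 3 * 5 * 7 * 11 ^ 3 * 23 * 29 * 31 * 37 * 43 := by norm_num
  rw [h1] at h
  have key : ∀ {q k : ℕ}, q.Prime → p ∣ q ^ k → p = q := fun hq hd =>
    (Nat.prime_dvd_prime_iff_eq hp hq).1 (hp.dvd_of_dvd_pow hd)
  have key' : ∀ {q : ℕ}, q.Prime → p ∣ q → p = q := fun hq hd => (Nat.prime_dvd_prime_iff_eq hp hq).1 hd
  rcases (Nat.Prime.dvd_mul hp).1 h with h | h
  · rcases (Nat.Prime.dvd_mul hp).1 h with h | h
    · rcases (Nat.Prime.dvd_mul hp).1 h with h | h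
      · rcases (Nat.Prime.dvd_mul hp).1 h with h | h
        · rcases (Nat.Prime.dvd_mul hp).1 h with h | h
          · rcases (Nat.Prime.dvd_mul hp).1 h with h | h
            · rcases (Nat.Prime.dvd_mul hp).1 h with h | h
              · rcases (Nat.Prime.dvd_mul hp).1 h with h | h
                · rcases (Nat.Prime.dvd_mul hp).1 h with h | h
                  · have := key (by norm_num) h; omega
                  · have := key (by norm_num) h; omega
                · have := key' (by norm_num) h; omega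
              · have := key' (by norm_num) h; omega
            · have := key (by norm_num) h; omega
          · have := key' (by norm_num) h; omega
        · have := key' (by norm_num) h; omega
      · have := key' (by norm_num) h; omega
    · have := key' (by norm_num) h; omega
  · have := key' (by norm_num) h; omega

theorem not_sq {p : ℕ} (hp : p.Prime) (h2 : p ≠ 2) (h3 : p ≠ 3) (h11 : p ≠ 11) : ¬ p ^ 2 ∣ Nat.card Spor.J4 := by
  rw [card]
  intro h
  rcases primes hp ((Dvd.intro_left (p ^ 1) rfl : p ∣ p ^ 1 * p).trans (by rw [← pow_succ]; exact h)) with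
    h1 | h1 | h1 | h1 | h1 | h1 | h1 | h1 | h1 | h1
  · exact h2 h1
  · exact h3 h1
  · subst h1; norm_num at h
  · subst h1; norm_num at h
  · exact h11 h1
  · subst h1; norm_num at h
  · subst h1; norm_num at h
  · subst h1; norm_num at h
  · subst h1; norm_num at h
  · subst h1; norm_num at h

/-- the row -/
theorem row (p : ℕ) [hp : Fact p.Prime] : CRow p Spor.J4 := by
  have hfin := fin
  have hs := simple
  have hct : IsCharacteristicTwoType Spor.J4 := Cfsg.Agent.SevenCases.SporJ4.charTwo ⟨MulEquiv.refl _⟩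
  obtain ⟨-, -, ⟨F'⟩⟩ := KFacts.J4.Base.exists_full (K := Cfsg.Spor.J4) ⟨MulEquiv.refl _⟩
  let F := F'.C
  have hM : IsSimpleGroup Cfsg.M24 := Cfsg.Agent.S0365.result
  have hcM := Cfsg.Agent.SporadicA.M24Trans.card_M24
  have hMf : Finite Cfsg.M24 := Nat.finite_of_card_ne_zero (by rw [hcM]; norm_num)
  have hMab : ¬ IsMulCommutative Cfsg.M24 := by
    intro hm
    let _ : CommGroup Cfsg.M24 := { (inferInstance : Group Cfsg.M24) with mul_comm := hm.1.1 }
    have h1 : (Nat.card Cfsg.M24).Prime := IsSimpleGroup.prime_card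
    rw [hcM] at h1
    norm_num at h1
  have hNE := Cfsg.Agent.H859.CentC.card_NE F
  have hidx := (normalizer (F.E hex0 : Set Spor.J4)).card_mul_index
  rw [hNE, card] at hidx
  have hidx' : (normalizer (F.E hex0 : Set Spor.J4)).index = 173067389 := by omega
  have hNt : normalizer (F.E hex0 : Set Spor.J4) ≠ ⊤ := by
    intro h
    rw [h, index_top] at hidx'
    omega
  have hcore : ∀ x ∈ pCore p ↥(normalizer (F.E hex0 : Set Spor.J4)), x * x = 1 := by
    intro x hx
    have h1 := map_mem_pCore F.π F.π_surj hx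
    rw [pCore_eq_bot_of_simple hMab p, mem_bot] at h1
    have h2 := (F.E_elem hex0 FusionConj.isHex_hex0).1 _ ((F.π_ker x).1 h1)
    exact Subtype.ext h2
  by_cases h2 : p = 2
  · subst h2
    intro C hC
    exact hC.eq_one_of_two_exp (pCore_eq_bot_of_simple hab 2) hNt (by rw [hidx']; norm_num) hcore
  by_cases h3 : p = 3
  · subst h3
    intro C hC
    refine hC.eq_one_of_index hNt (by rw [hidx']; norm_num) ?_
    rw [eq_bot_iff]
    intro x hx
    exact eq_one_of_pow hx (m := 2) (by norm_num) (by rw [pow_two]; exact hcore x hx)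
  by_cases h11 : p = 11
  · subst h11
    intro C hC c hc
    by_contra hc1
    have hodd := hC.odd_centralizer (cover hab hct (by norm_num)) hc hc1
    obtain ⟨k, hk⟩ := hC.pel c hc
    obtain ⟨g, hg⟩ := SylEleven.exists_conj_mem SylEleven.isPGroup_U SylEleven.not_dvd_U (g := c)
      ⟨k, by rw [← hk]; exact pow_orderOf_eq_one c⟩
    have h4 := Heis.pow_p NU.rel (by norm_num) hg
    have h5 : c ^ 11 = 1 := by
      have h6 : (g * c * g⁻¹) ^ 11 = g * c ^ 11 * g⁻¹ := conj_pow
      rw [h6] at h4
      simpa using h4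
    have h6 : orderOf c = 11 := orderOf_eq_prime h5 hc1
    obtain ⟨t, ht, hct'⟩ := Cfsg.Agent.H478.RadJ4.exists_invol h6
    have h7 : t ∈ centralizer ({c} : Set Spor.J4) := mem_centralizer_singleton_iff.2 hct'.symm
    have h8 : orderOf (⟨t, h7⟩ : centralizer ({c} : Set Spor.J4)) = 2 := by rw [← Subgroup.orderOf_coe]; exact ht
    have h9 : 2 ∣ Nat.card (centralizer ({c} : Set Spor.J4)) := h8 ▸ orderOf_dvd_natCard _
    rw [← Nat.not_even_iff_odd, even_iff_two_dvd] at hodd
    exact hodd h9
  · obtain ⟨a, b, hab'⟩ : ∃ a b : GolayPt, a ≠ b := ⟨none, some 0, by simp⟩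
    have hnc := F.duad_not_conj a b hab'
    have hcardab : Even ({a, b} : Finset GolayPt).card := by
      rw [Finset.card_pair hab']; exact ⟨1, rfl⟩
    have he2 := (F.E_elem hex0 FusionConj.isHex_hex0).1 _ (F.ε_mem {a, b} hcardab)
    have hz2 : F.z * F.z = 1 := by
      rw [← pow_two, ← F.z_order]; exact pow_orderOf_eq_one _
    have hz1 : F.z ≠ 1 := by
      intro h
      have h4 := F.z_order
      rw [h, orderOf_one] at h4
      omega
    exact row_of_not_sq hab hct h2 (not_sq hp.out h2 h3 h11) hz2 hz1 he2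
      (Cfsg.Agent.J4Type.DuadUniq.duad_ne_one F.toFrame hab') hnc

/-- **The fourth Janko group.** -/
theorem crow_j4 {G : Type*} [Group G] [Finite G] [IsSimpleGroup G] (h : Spor.IsoJ4 G) (p : ℕ) [Fact p.Prime] :
    CRow p G := by
  obtain ⟨e⟩ := h
  exact CRow.of_equiv e (row p)

end Cfsg.Agent.H417.CC.JFour
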